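import Cfsg.Agent.Lib.Tw3D4.Steps

/-!
# Uniqueness of the normal form, membership, Weyl elements and the torus of `³D₄(q)`, characteristic two
-/

set_option autoImplicit false
set_option maxRecDepth 1000000
set_option linter.unusedSectionVars false
set_option linter.unusedVariables false
set_option linter.unusedSimpArgs false

namespace Cfsg.Agent.Lib.Tw3D4

open Cfsg.Lie Cfsg.Agent.Lib.ChevBN.Elem Cfsg.Agent.Lib.ChevBN.Table Cfsg.Agent.Lib.ChevBN.Rel
open Cfsg.Agent.Lib.ChevBN.FastData Cfsg.Agent.Lib.ChevBN.Collect Cfsg.Agent.Lib.ChevBN.Opp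
open Cfsg.Agent.Lib.Invol.Lace Cfsg.Agent.Lib.Invol.Normal Cfsg.Agent.Lib.Invol.Walk
open Cfsg.Agent.Lib.Twisted Cfsg.Agent.Lib.Twisted.D4
open Cfsg.Agent.Lib.Chevalley.Tbl.D4 (sys)

variable {K : Type*} [Field K] [CharP K 2]

set_option quotPrecheck false in
/-- The root elements. -/
local notation "Xr" => X (sys (F := _)).toAddRel

/-! ### Uniqueness -/

theorem closed_of_list (L : List ℕ) (h1 : ∀ r ∈ L, chevD4.IsPosRoot r)
    (h2 : ∀ r ∈ L, ∀ s ∈ L, r ≠ s → ∀ x ∈ chevD4.commTerms r s, x.1 ∈ L) : Invol.Normal.Closed chevD4 {r | r ∈ L} := by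
  refine ⟨h1, ?_⟩
  rintro r hr s hs hrs c ⟨ε, hc, -⟩
  exact h2 r hr s hs hrs (c, ε, 1, 1) (by rw [hc]; simp)

theorem ustep {Ψ : Set ℕ} (hΨ : Invol.Normal.Closed chevD4 Ψ) {r : ℕ} (hr : chevD4.IsPosRoot r) (hrΨ : r ∉ Ψ) {s t : K}
    {R R' : GL chevD4.Idx K} (hRm : R ∈ gen (sys (F := K)).toAddRel Ψ)
    (hR'm : R' ∈ gen (sys (F := K)).toAddRel Ψ) (h : Xr r s * R = Xr r t * R') : s = t ∧ R = R' := by
  have h1 : Xr r (-t + s) = R' * R⁻¹ := by
    rw [← X_mul, ← X_inv, eq_mul_inv_iff_mul_eq, mul_assoc, h, inv_mul_cancel_left]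
  have h3 : -t + s = 0 := by
    by_contra hne
    refine X_not_mem (commPos sys) tbl_chevD4 lace hΨ hr hrΨ hne ?_
    rw [h1]
    exact Subgroup.mul_mem _ hR'm (Subgroup.inv_mem _ hRm)
  have h4 : s = t := by
    have : s = t + (-t + s) := by ring
    rw [this, h3, add_zero]
  subst h4
  exact ⟨rfl, mul_left_cancel h⟩

/-- The normal form is unique. -/
theorem pr_inj (φ : K →+* K) {a b c d e f a' b' c' d' e' f' : K}
    (h : pr φ a b c d e f = pr φ a' b' c' d' e' f') :
    a = a' ∧ b = b' ∧ c = c' ∧ d = d' ∧ e = e' ∧ f = f' := by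
  unfold pr at h
  obtain ⟨h1, h⟩ := ustep (Ψ := {r | r ∈ [13, 12, 14, 19, 16, 15, 17, 20, 21, 22, 23]})
    (closed_of_list [13, 12, 14, 19, 16, 15, 17, 20, 21, 22, 23] (by decide +kernel) (by decide +kernel)) (pos_all _ (by simp)) (by simp)
    (by (repeat' apply Subgroup.mul_mem) <;> first | exact Subgroup.one_mem _ | exact X_mem_gen _ (by simp) _)
    (by (repeat' apply Subgroup.mul_mem) <;> first | exact Subgroup.one_mem _ | exact X_mem_gen _ (by simp) _) h
  obtain ⟨-, h⟩ := ustep (Ψ := {r | r ∈ [12, 14, 19, 16, 15, 17, 20, 21, 22, 23]})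
    (closed_of_list [12, 14, 19, 16, 15, 17, 20, 21, 22, 23] (by decide +kernel) (by decide +kernel)) (pos_all _ (by simp)) (by simp)
    (by (repeat' apply Subgroup.mul_mem) <;> first | exact Subgroup.one_mem _ | exact X_mem_gen _ (by simp) _)
    (by (repeat' apply Subgroup.mul_mem) <;> first | exact Subgroup.one_mem _ | exact X_mem_gen _ (by simp) _) h
  obtain ⟨-, h⟩ := ustep (Ψ := {r | r ∈ [14, 19, 16, 15, 17, 20, 21, 22, 23]})
    (closed_of_list [14, 19, 16, 15, 17, 20, 21, 22, 23] (by decide +kernel) (by decide +kernel)) (pos_all _ (by simp)) (by simp)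
    (by (repeat' apply Subgroup.mul_mem) <;> first | exact Subgroup.one_mem _ | exact X_mem_gen _ (by simp) _)
    (by (repeat' apply Subgroup.mul_mem) <;> first | exact Subgroup.one_mem _ | exact X_mem_gen _ (by simp) _) h
  obtain ⟨h2, h⟩ := ustep (Ψ := {r | r ∈ [19, 16, 15, 17, 20, 21, 22, 23]})
    (closed_of_list [19, 16, 15, 17, 20, 21, 22, 23] (by decide +kernel) (by decide +kernel)) (pos_all _ (by simp)) (by simp)
    (by (repeat' apply Subgroup.mul_mem) <;> first | exact Subgroup.one_mem _ | exact X_mem_gen _ (by simp) _)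
    (by (repeat' apply Subgroup.mul_mem) <;> first | exact Subgroup.one_mem _ | exact X_mem_gen _ (by simp) _) h
  obtain ⟨h3, h⟩ := ustep (Ψ := {r | r ∈ [16, 15, 17, 20, 21, 22, 23]})
    (closed_of_list [16, 15, 17, 20, 21, 22, 23] (by decide +kernel) (by decide +kernel)) (pos_all _ (by simp)) (by simp)
    (by (repeat' apply Subgroup.mul_mem) <;> first | exact Subgroup.one_mem _ | exact X_mem_gen _ (by simp) _)
    (by (repeat' apply Subgroup.mul_mem) <;> first | exact Subgroup.one_mem _ | exact X_mem_gen _ (by simp) _) h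
  obtain ⟨-, h⟩ := ustep (Ψ := {r | r ∈ [15, 17, 20, 21, 22, 23]})
    (closed_of_list [15, 17, 20, 21, 22, 23] (by decide +kernel) (by decide +kernel)) (pos_all _ (by simp)) (by simp)
    (by (repeat' apply Subgroup.mul_mem) <;> first | exact Subgroup.one_mem _ | exact X_mem_gen _ (by simp) _)
    (by (repeat' apply Subgroup.mul_mem) <;> first | exact Subgroup.one_mem _ | exact X_mem_gen _ (by simp) _) h
  obtain ⟨-, h⟩ := ustep (Ψ := {r | r ∈ [17, 20, 21, 22, 23]})
    (closed_of_list [17, 20, 21, 22, 23] (by decide +kernel) (by decide +kernel)) (pos_all _ (by simp)) (by simp)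
    (by (repeat' apply Subgroup.mul_mem) <;> first | exact Subgroup.one_mem _ | exact X_mem_gen _ (by simp) _)
    (by (repeat' apply Subgroup.mul_mem) <;> first | exact Subgroup.one_mem _ | exact X_mem_gen _ (by simp) _) h
  obtain ⟨h4, h⟩ := ustep (Ψ := {r | r ∈ [20, 21, 22, 23]})
    (closed_of_list [20, 21, 22, 23] (by decide +kernel) (by decide +kernel)) (pos_all _ (by simp)) (by simp)
    (by (repeat' apply Subgroup.mul_mem) <;> first | exact Subgroup.one_mem _ | exact X_mem_gen _ (by simp) _)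
    (by (repeat' apply Subgroup.mul_mem) <;> first | exact Subgroup.one_mem _ | exact X_mem_gen _ (by simp) _) h
  obtain ⟨-, h⟩ := ustep (Ψ := {r | r ∈ [21, 22, 23]})
    (closed_of_list [21, 22, 23] (by decide +kernel) (by decide +kernel)) (pos_all _ (by simp)) (by simp)
    (by (repeat' apply Subgroup.mul_mem) <;> first | exact Subgroup.one_mem _ | exact X_mem_gen _ (by simp) _)
    (by (repeat' apply Subgroup.mul_mem) <;> first | exact Subgroup.one_mem _ | exact X_mem_gen _ (by simp) _) h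
  obtain ⟨-, h⟩ := ustep (Ψ := {r | r ∈ [22, 23]})
    (closed_of_list [22, 23] (by decide +kernel) (by decide +kernel)) (pos_all _ (by simp)) (by simp)
    (by (repeat' apply Subgroup.mul_mem) <;> first | exact Subgroup.one_mem _ | exact X_mem_gen _ (by simp) _)
    (by (repeat' apply Subgroup.mul_mem) <;> first | exact Subgroup.one_mem _ | exact X_mem_gen _ (by simp) _) h
  obtain ⟨h5, h⟩ := ustep (Ψ := {r | r ∈ [23]})
    (closed_of_list [23] (by decide +kernel) (by decide +kernel)) (pos_all _ (by simp)) (by simp)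
    (by (repeat' apply Subgroup.mul_mem) <;> first | exact Subgroup.one_mem _ | exact X_mem_gen _ (by simp) _)
    (by (repeat' apply Subgroup.mul_mem) <;> first | exact Subgroup.one_mem _ | exact X_mem_gen _ (by simp) _) h
  obtain ⟨h6, -⟩ := ustep (Ψ := {r | r ∈ ([] : List ℕ)})
    (closed_of_list [] (by decide +kernel) (by decide +kernel)) (pos_all _ (by simp)) (by simp)
    (Subgroup.one_mem _) (Subgroup.one_mem _) h
  exact ⟨h1, h2, h3, h4, h5, h6⟩

/-! ### Fixed elements -/

section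
variable {φ : K →+* K} {T : Tw (sys (F := K)).toAddRel} (hρ : T.ρ = ρ0)
  (hτ : ∀ r t, T.τ r t = ((ε0 r : ℤ) : K) * φ t) (hφ3 : ∀ t, φ (φ (φ t)) = t)

theorem eps_chk : ∀ r ∈ [12, 13, 14, 15, 16, 17, 18, 19, 20, 21, 22, 23], ε0 r = 1 ∨ ε0 r = -1 := by
  decide +kernel

include hρ hτ in
theorem s_root {r : ℕ} (hr : r ∈ [12, 13, 14, 15, 16, 17, 18, 19, 20, 21, 22, 23]) (t : K) :
    T.s (Xr r t) = Xr (ρ0 r) (φ t) := by
  rw [T.s_X r (pos_all r hr).1, hρ, hτ]
  rcases eps_chk r hr with h | h <;> simp [h, CharTwo.neg_eq]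

theorem mem_group_X {r : ℕ} (hr : r ∈ [12, 13, 14, 15, 16, 17, 18, 19, 20, 21, 22, 23]) (t : K) :
    Xr r t ∈ chevD4.group K := Tw.X_mem_group (pos_all r hr).1 t

include hρ hτ hφ3 in
theorem orb_fix {r1 r2 r3 : ℕ} {t : K} (h1 : r1 ∈ [12, 13, 14, 15, 16, 17, 18, 19, 20, 21, 22, 23])
    (h2 : r2 ∈ [12, 13, 14, 15, 16, 17, 18, 19, 20, 21, 22, 23])
    (h3 : r3 ∈ [12, 13, 14, 15, 16, 17, 18, 19, 20, 21, 22, 23])
    (e1 : ρ0 r1 = r2) (e2 : ρ0 r2 = r3) (e3 : ρ0 r3 = r1)
    (c1 : Commute (Xr r2 (φ t)) (Xr r1 t)) (c2 : Commute (Xr r3 (φ (φ t))) (Xr r1 t)) :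
    Xr r1 t * (Xr r2 (φ t) * (Xr r3 (φ (φ t)) * 1)) ∈ T.Fx := by
  have hm : Xr r1 t * (Xr r2 (φ t) * (Xr r3 (φ (φ t)) * 1)) ∈ chevD4.group K :=
    Subgroup.mul_mem _ (mem_group_X h1 _) (Subgroup.mul_mem _ (mem_group_X h2 _)
      (Subgroup.mul_mem _ (mem_group_X h3 _) (Subgroup.one_mem _)))
  refine ⟨hm, ?_⟩
  rw [mul_one, T.s_mul _ (mem_group_X h1 _) _ (Subgroup.mul_mem _ (mem_group_X h2 _) (mem_group_X h3 _)),
    T.s_mul _ (mem_group_X h2 _) _ (mem_group_X h3 _), s_root hρ hτ h1, s_root hρ hτ h2, s_root hρ hτ h3, e1, e2, e3, hφ3]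
  calc Xr r2 (φ t) * (Xr r3 (φ (φ t)) * Xr r1 t) = Xr r2 (φ t) * (Xr r1 t * Xr r3 (φ (φ t))) := by rw [c2.eq]
    _ = (Xr r2 (φ t) * Xr r1 t) * Xr r3 (φ (φ t)) := by group
    _ = (Xr r1 t * Xr r2 (φ t)) * Xr r3 (φ (φ t)) := by rw [c1.eq]
    _ = _ := by group

include hρ hτ in
theorem X_fix {r : ℕ} (hr : r ∈ [12, 13, 14, 15, 16, 17, 18, 19, 20, 21, 22, 23]) (he : ρ0 r = r) {t : K}
    (ht : φ t = t) : Xr r t ∈ T.Fx := by
  refine ⟨mem_group_X hr t, ?_⟩
  rw [s_root hρ hτ hr, he, ht]

include hρ hτ hφ3 in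
/-- The normal form is fixed. -/
theorem pr_fix (a c d : K) {b e f : K} (hb : φ b = b) (he : φ e = e) (hf : φ f = f) :
    pr φ a b c d e f ∈ T.Fx := by
  have h1 := orb_fix hρ hτ hφ3 (r1 := 18) (r2 := 13) (r3 := 12) (t := a) (by simp) (by simp) (by simp)
    (by decide +kernel) (by decide +kernel) (by decide +kernel)
    (Commute.eq (comm_p (K := K) (a := 13) (b := 18) (by decide +kernel) (by decide +kernel) (by decide +kernel)
      (by decide +kernel) (by decide +kernel) _ _))
    (Commute.eq (comm_p (K := K) (a := 12) (b := 18) (by decide +kernel) (by decide +kernel) (by decide +kernel)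
      (by decide +kernel) (by decide +kernel) _ _))
  have h2 := orb_fix hρ hτ hφ3 (r1 := 19) (r2 := 16) (r3 := 15) (t := c) (by simp) (by simp) (by simp)
    (by decide +kernel) (by decide +kernel) (by decide +kernel)
    (Commute.eq (comm_p (K := K) (a := 16) (b := 19) (by decide +kernel) (by decide +kernel) (by decide +kernel)
      (by decide +kernel) (by decide +kernel) _ _))
    (Commute.eq (comm_p (K := K) (a := 15) (b := 19) (by decide +kernel) (by decide +kernel) (by decide +kernel)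
      (by decide +kernel) (by decide +kernel) _ _))
  have h3 := orb_fix hρ hτ hφ3 (r1 := 17) (r2 := 20) (r3 := 21) (t := d) (by simp) (by simp) (by simp)
    (by decide +kernel) (by decide +kernel) (by decide +kernel)
    (Commute.eq (comm_p (K := K) (a := 20) (b := 17) (by decide +kernel) (by decide +kernel) (by decide +kernel)
      (by decide +kernel) (by decide +kernel) _ _))
    (Commute.eq (comm_p (K := K) (a := 21) (b := 17) (by decide +kernel) (by decide +kernel) (by decide +kernel)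
      (by decide +kernel) (by decide +kernel) _ _))
  have h4 := X_fix hρ hτ (r := 14) (by simp) (by decide +kernel) hb
  have h5 := X_fix hρ hτ (r := 22) (by simp) (by decide +kernel) he
  have h6 := X_fix hρ hτ (r := 23) (by simp) (by decide +kernel) hf
  have e : pr φ a b c d e f = (Xr 18 a * (Xr 13 (φ a) * (Xr 12 (φ (φ a)) * 1))) * (Xr 14 b *
      ((Xr 19 c * (Xr 16 (φ c) * (Xr 15 (φ (φ c)) * 1))) * ((Xr 17 d * (Xr 20 (φ d) * (Xr 21 (φ (φ d)) * 1))) *
      (Xr 22 e * (Xr 23 f * 1))))) := by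
    simp only [pr, mul_one, mul_assoc]
  rw [e]
  refine Subgroup.mul_mem _ h1 (Subgroup.mul_mem _ h4 (Subgroup.mul_mem _ h2 (Subgroup.mul_mem _ h3
    (Subgroup.mul_mem _ h5 (Subgroup.mul_mem _ h6 (Subgroup.one_mem _))))))

theorem pr_U (φ : K →+* K) (a b c d e f : K) : pr φ a b c d e f ∈ chevD4.posUnipotent K := by
  rw [posUnipotent_eq (sys (F := K)).toAddRel]
  unfold pr
  (repeat' apply Subgroup.mul_mem) <;> first
    | exact Subgroup.one_mem _
    | exact X_mem_gen _ (pos_all _ (by simp)) _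

end

/-! ### Weyl elements -/

theorem cA {i r : ℕ} (hi : i < chevD4.rank) (hr : r < chevD4.nroots) (t : K) :
    A sys i * Xr r t * (A sys i)⁻¹ = Xr (chevD4.reflectRoot i r) t := by
  rw [A_conj_X sys hi hr]
  congr 1
  rcases (sys (F := K)).eta_sign i hi r hr with h | h <;> simp [h, CharTwo.neg_eq]

theorem cP : ∀ (l : List ℕ), (∀ i ∈ l, i < chevD4.rank) → ∀ {r : ℕ}, r < chevD4.nroots → ∀ t : K,
    MulAut.conj (prodA sys l) (Xr r t) = Xr (l.foldr chevD4.reflectRoot r) t := by
  intro l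
  induction l with
  | nil =>
    intro _ r _ t
    simp [prodA]
  | cons i l ih =>
    intro hl r hr t
    have hl' : ∀ j ∈ l, j < chevD4.rank := fun j hj => hl j (by simp [hj])
    have hi : i < chevD4.rank := hl i (by simp)
    have hr' : l.foldr chevD4.reflectRoot r < chevD4.nroots := by
      clear ih
      induction l with
      | nil => simpa using hr
      | cons j l ih2 =>
        simp only [List.foldr_cons]
        exact tbl_chevD4.w_lt j (hl' j (by simp)) _ (ih2 (by
          intro k hk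
          exact hl k (by
            rcases List.mem_cons.1 hk with h | h
            · simp [h]
            · simp [h])) (fun k hk => hl' k (by simp [hk])))
    have e : prodA (sys (F := K)) (i :: l) = A (sys (F := K)) i * prodA (sys (F := K)) l := by simp [prodA]
    have e2 := ih hl' hr t
    rw [MulAut.conj_apply] at e2 ⊢
    rw [e, List.foldr_cons, ← cA hi hr', ← e2]
    group

/-- The Weyl element of the long fundamental root. -/
noncomputable abbrev Nb : GL chevD4.Idx K := prodA sys [1]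

/-- The Weyl element of the short fundamental root. -/
noncomputable abbrev Na : GL chevD4.Idx K := prodA sys [0, 2, 3]

theorem rb_19 (t : K) : MulAut.conj (Nb (K := K)) (Xr 19 t) = Xr 18 t := by
  have := cP (K := K) [1] (by decide) (r := 19) (by decide +kernel) t
  rwa [(by decide +kernel : [1].foldr chevD4.reflectRoot 19 = 18)] at this

theorem rb_16 (t : K) : MulAut.conj (Nb (K := K)) (Xr 16 t) = Xr 13 t := by
  have := cP (K := K) [1] (by decide) (r := 16) (by decide +kernel) t
  rwa [(by decide +kernel : [1].foldr chevD4.reflectRoot 16 = 13)] at this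

theorem rb_15 (t : K) : MulAut.conj (Nb (K := K)) (Xr 15 t) = Xr 12 t := by
  have := cP (K := K) [1] (by decide) (r := 15) (by decide +kernel) t
  rwa [(by decide +kernel : [1].foldr chevD4.reflectRoot 15 = 12)] at this

theorem rb_17 (t : K) : MulAut.conj (Nb (K := K)) (Xr 17 t) = Xr 17 t := by
  have := cP (K := K) [1] (by decide) (r := 17) (by decide +kernel) t
  rwa [(by decide +kernel : [1].foldr chevD4.reflectRoot 17 = 17)] at this

theorem rb_20 (t : K) : MulAut.conj (Nb (K := K)) (Xr 20 t) = Xr 20 t := by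
  have := cP (K := K) [1] (by decide) (r := 20) (by decide +kernel) t
  rwa [(by decide +kernel : [1].foldr chevD4.reflectRoot 20 = 20)] at this

theorem rb_21 (t : K) : MulAut.conj (Nb (K := K)) (Xr 21 t) = Xr 21 t := by
  have := cP (K := K) [1] (by decide) (r := 21) (by decide +kernel) t
  rwa [(by decide +kernel : [1].foldr chevD4.reflectRoot 21 = 21)] at this

theorem rb_22 (t : K) : MulAut.conj (Nb (K := K)) (Xr 22 t) = Xr 23 t := by
  have := cP (K := K) [1] (by decide) (r := 22) (by decide +kernel) t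
  rwa [(by decide +kernel : [1].foldr chevD4.reflectRoot 22 = 23)] at this

theorem rb_23 (t : K) : MulAut.conj (Nb (K := K)) (Xr 23 t) = Xr 22 t := by
  have := cP (K := K) [1] (by decide) (r := 23) (by decide +kernel) t
  rwa [(by decide +kernel : [1].foldr chevD4.reflectRoot 23 = 22)] at this

theorem ra_17 (t : K) : MulAut.conj (Na (K := K)) (Xr 17 t) = Xr 19 t := by
  have := cP (K := K) [0, 2, 3] (by decide) (r := 17) (by decide +kernel) t
  rwa [(by decide +kernel : [0, 2, 3].foldr chevD4.reflectRoot 17 = 19)] at this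

theorem ra_20 (t : K) : MulAut.conj (Na (K := K)) (Xr 20 t) = Xr 16 t := by
  have := cP (K := K) [0, 2, 3] (by decide) (r := 20) (by decide +kernel) t
  rwa [(by decide +kernel : [0, 2, 3].foldr chevD4.reflectRoot 20 = 16)] at this

theorem ra_21 (t : K) : MulAut.conj (Na (K := K)) (Xr 21 t) = Xr 15 t := by
  have := cP (K := K) [0, 2, 3] (by decide) (r := 21) (by decide +kernel) t
  rwa [(by decide +kernel : [0, 2, 3].foldr chevD4.reflectRoot 21 = 15)] at this

theorem ra_22 (t : K) : MulAut.conj (Na (K := K)) (Xr 22 t) = Xr 14 t := by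
  have := cP (K := K) [0, 2, 3] (by decide) (r := 22) (by decide +kernel) t
  rwa [(by decide +kernel : [0, 2, 3].foldr chevD4.reflectRoot 22 = 14)] at this

theorem ra_23 (t : K) : MulAut.conj (Na (K := K)) (Xr 23 t) = Xr 23 t := by
  have := cP (K := K) [0, 2, 3] (by decide) (r := 23) (by decide +kernel) t
  rwa [(by decide +kernel : [0, 2, 3].foldr chevD4.reflectRoot 23 = 23)] at this

theorem ra_14 (t : K) : MulAut.conj (Na (K := K)) (Xr 14 t) = Xr 22 t := by
  have := cP (K := K) [0, 2, 3] (by decide) (r := 14) (by decide +kernel) t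
  rwa [(by decide +kernel : [0, 2, 3].foldr chevD4.reflectRoot 14 = 22)] at this

/-- The conjugation by the long Weyl element. -/
theorem conj_b (φ : K →+* K) (c d e f : K) :
    Nb * pr φ 0 0 c d e f * Nb⁻¹ = pr φ c 0 0 d f e := by
  rw [← MulAut.conj_apply]
  simp only [pr, map_mul, map_one, map_zero, X_zero, one_mul, rb_19, rb_16, rb_15, rb_17, rb_20, rb_21, rb_22, rb_23,
    sw_23_22]

/-- The conjugation by the short Weyl element. -/
theorem conj_a (φ : K →+* K) (d e f : K) :
    Na * pr φ 0 0 0 d e f * Na⁻¹ = pr φ 0 e d 0 0 f := by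
  rw [← MulAut.conj_apply]
  simp only [pr, map_mul, map_one, map_zero, X_zero, one_mul, ra_17, ra_20, ra_21, ra_22, ra_23,
    sw_19_14, sw_16_14, sw_15_14]

/-- The conjugation by the short Weyl element, with a long root. -/
theorem conj_a' (φ : K →+* K) (b d : K) :
    Na * pr φ 0 b 0 d 0 0 * Na⁻¹ = pr φ 0 0 d 0 b 0 := by
  rw [← MulAut.conj_apply]
  simp only [pr, map_mul, map_one, map_zero, X_zero, one_mul, ra_17, ra_20, ra_21, ra_22, ra_14,
    sw_22_19, sw_22_16, sw_22_15]

end Cfsg.Agent.Lib.Tw3D4
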