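import Cfsg.Agent.Lib.Tw3D4.Base

/-!
# The classes of involutions of `³D₄(q)`, characteristic two: the normal form
-/

set_option autoImplicit false
set_option maxRecDepth 1000000
set_option linter.unusedSectionVars false
set_option linter.unusedVariables false
set_option linter.unusedSimpArgs false

namespace Cfsg.Agent.Lib.Tw3D4

open Cfsg.Lie Cfsg.Agent.Lib.ChevBN.Elem Cfsg.Agent.Lib.ChevBN.Table Cfsg.Agent.Lib.ChevBN.Rel
open Cfsg.Agent.Lib.ChevBN.FastData Cfsg.Agent.Lib.ChevBN.Collect Cfsg.Agent.Lib.ChevBN.Opp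
open Cfsg.Agent.Lib.Twisted Cfsg.Agent.Lib.Twisted.D4
open Cfsg.Agent.Lib.Chevalley.Tbl.D4 (sys)

variable {K : Type*} [Field K] [CharP K 2]

set_option quotPrecheck false in
/-- The root elements. -/
local notation "Xr" => X (sys (F := _)).toAddRel

/-! ### Field facts -/

theorem exists_L {φ : K →+* K} (hφ3 : ∀ t, φ (φ (φ t)) = t) {a d : K} (ha : a ≠ 0)
    (hd : a * d + φ a * φ d + φ (φ a) * φ (φ d) = 0) :
    ∃ w, φ a * φ (φ w) + φ (φ a) * φ w = d := by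
  have h2 : (2 : K) = 0 := CharTwo.two_eq_zero
  have ha1 : φ a ≠ 0 := by simpa using ha
  have ha2 : φ (φ a) ≠ 0 := by simpa using ha
  set n := φ a * φ (φ a) with hn
  have hn0 : n ≠ 0 := mul_ne_zero ha1 ha2
  obtain ⟨e', he1⟩ : ∃ e', e' * n = d := ⟨d / n, div_mul_cancel₀ _ hn0⟩
  have hfe : φ e' * (φ (φ a) * a) = φ d := by
    have := congrArg φ he1
    simpa only [hn, map_mul, hφ3] using this
  have hffe : φ (φ e') * (a * φ a) = φ (φ d) := by
    have := congrArg φ hfe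
    simpa only [map_mul, hφ3] using this
  have htr : (e' + φ e' + φ (φ e')) * (a * n) = 0 := by
    rw [hn] at he1 ⊢
    linear_combination hd + a * he1 + φ a * hfe + φ (φ a) * hffe
  have htr' : e' + φ e' + φ (φ e') = 0 :=
    (mul_eq_zero.1 htr).resolve_right (mul_ne_zero ha hn0)
  refine ⟨a * e', ?_⟩
  simp only [map_mul]
  rw [hn] at he1
  linear_combination (φ a * φ (φ a)) * htr' - (φ a * φ (φ a) * e') * h2 + he1

/-! ### Conjugacy -/

/-- Conjugacy in a subgroup. -/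
def CG (G : Subgroup (GL chevD4.Idx K)) (x y : GL chevD4.Idx K) : Prop := ∃ g ∈ G, g * x * g⁻¹ = y

theorem CG.trans {G : Subgroup (GL chevD4.Idx K)} {x y z : GL chevD4.Idx K} (h : CG G x y) (h' : CG G y z) :
    CG G x z := by
  obtain ⟨g, hg, rfl⟩ := h
  obtain ⟨g', hg', rfl⟩ := h'
  exact ⟨g' * g, Subgroup.mul_mem _ hg' hg, by group⟩

theorem CG.sq {G : Subgroup (GL chevD4.Idx K)} {x y : GL chevD4.Idx K} (h : CG G x y) (hx : x * x = 1) : y * y = 1 := by
  obtain ⟨g, -, rfl⟩ := h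
  calc g * x * g⁻¹ * (g * x * g⁻¹) = g * (x * x) * g⁻¹ := by group
    _ = 1 := by rw [hx]; group

theorem cg_step {G : Subgroup (GL chevD4.Idx K)} {y t t' : GL chevD4.Idx K} (hy : y ∈ G) (hy2 : y * y = 1)
    (h : y * t * y = t') : CG G t t' :=
  ⟨y, hy, by rw [inv_eq_of_mul_eq_one_left hy2]; exact h⟩

section Main

variable [Fintype K] {q : ℕ} {φ : K →+* K} {T : Tw (sys (F := K)).toAddRel}
  (hφ : ∀ t, φ t = t ^ q) (hφ3 : ∀ t, φ (φ (φ t)) = t) (hρ : T.ρ = ρ0)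
  (hτ : ∀ r t, T.τ r t = ((ε0 r : ℤ) : K) * φ t)
  (I : Inst sys tbl_chevD4 T Js cl (twistedD4 K q))

include hρ hτ hφ3 I

theorem pr_mem (a c d : K) {b e f : K} (hb : φ b = b) (he : φ e = e) (hf : φ f = f) :
    pr φ a b c d e f ∈ twistedD4 K q :=
  I.U_le ⟨pr_U φ a b c d e f, pr_fix hρ hτ hφ3 a c d hb he hf⟩

omit hρ hτ hφ3 in
theorem Nb_mem : Nb (K := K) ∈ twistedD4 K q :=
  I.orth.prodA_mem_G1 sys tbl_chevD4 I.comm I.hw (by decide)

omit hρ hτ hφ3 in
theorem Na_mem : Na (K := K) ∈ twistedD4 K q :=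
  I.orth.prodA_mem_G1 sys tbl_chevD4 I.comm I.hw (by decide)

/-- Removing the coordinate of `3a + b`. -/
theorem clear_e {a e : K} (ha : a ≠ 0) (he : φ e = e) (f : K) :
    CG (twistedD4 K q) (pr φ a 0 0 0 e f) (pr φ a 0 0 0 0 f) := by
  have h2 : (2 : K) = 0 := CharTwo.two_eq_zero
  obtain ⟨v, hv1⟩ : ∃ v, v * a = e := ⟨e / a, div_mul_cancel₀ _ ha⟩
  have hv2 : φ v * φ a = e := by
    have := congrArg φ hv1
    simpa only [map_mul, he] using this
  have hv3 : φ (φ v) * φ (φ a) = e := by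
    have := congrArg φ hv2
    simpa only [map_mul, he] using this
  refine cg_step (y := pr φ 0 0 0 v 0 0) (pr_mem hφ3 hρ hτ I 0 0 v (map_zero φ) (map_zero φ) (map_zero φ))
    (sq_d φ hφ3 v) ?_
  rw [cj_d φ hφ3 v a e f]
  refine pr_congr rfl rfl rfl rfl ?_ rfl
  linear_combination hv1 + hv2 + hv3 + 2 * e * h2 - 2 * e * h2 + 2 * e * h2

/-- The first step: removing the coordinate of `a + b`. -/
theorem step1 {a c : K} (ha : a ≠ 0) (e2 : φ a * φ (φ c) = φ (φ a) * φ c) (d : K) {e f : K} (he : φ e = e)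
    (hf : φ f = f) : ∃ D E F, φ E = E ∧ φ F = F ∧
      CG (twistedD4 K q) (pr φ a 0 c d e f) (pr φ a 0 0 D E F) := by
  have h2 : (2 : K) = 0 := CharTwo.two_eq_zero
  have e3 : a * φ c = φ a * c := by
    have := congrArg φ (congrArg φ e2)
    simpa only [map_mul, hφ3] using this
  have ha1 : φ a ≠ 0 := by simpa using ha
  obtain ⟨u, hu0⟩ : ∃ u, u * a = c := ⟨c / a, div_mul_cancel₀ _ ha⟩
  have hfu : φ u = u := by
    have h5 : φ u * φ a = φ c := by rw [← map_mul, hu0]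
    have h6 : (φ u - u) * (φ a * a) = 0 := by
      subst hu0
      simp only [map_mul] at e3
      linear_combination e3
    have h7 := (mul_eq_zero.1 h6).resolve_right (mul_ne_zero ha1 ha)
    exact sub_eq_zero.1 h7
  have hc0 : a * u + c = 0 := by linear_combination hu0 + c * h2
  have hy := cj_b φ hφ3 a c d e f hfu
  refine ⟨_, _, _, ?_, ?_, cg_step (pr_mem hφ3 hρ hτ I 0 0 0 hfu (map_zero φ) (map_zero φ)) (sq_b φ hφ3 hfu)
    (hy.trans (pr_congr rfl rfl hc0 rfl rfl rfl))⟩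
  · simp only [map_add, map_mul, hφ3, hfu, he]
    ring
  · simp only [map_add, map_mul, hφ3, hfu, he, hf]
    ring

/-- The second step: removing the coordinate of `2a + b`. -/
theorem step2 {a d : K} (ha : a ≠ 0) (hd : a * d + φ a * φ d + φ (φ a) * φ (φ d) = 0) {e f : K} (he : φ e = e)
    (hf : φ f = f) : ∃ E F, φ E = E ∧ φ F = F ∧
      CG (twistedD4 K q) (pr φ a 0 0 d e f) (pr φ a 0 0 0 E F) := by
  have h2 : (2 : K) = 0 := CharTwo.two_eq_zero
  obtain ⟨w, hw⟩ := exists_L hφ3 ha hd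
  have hy := cj_c φ hφ3 w a d e f
  have hd0 : φ a * φ (φ w) + φ (φ a) * φ w + d = 0 := by linear_combination hw + d * h2
  refine ⟨_, _, ?_, ?_, cg_step (pr_mem hφ3 hρ hτ I 0 w 0 (map_zero φ) (map_zero φ) (map_zero φ)) (sq_c φ hφ3 w)
    (hy.trans (pr_congr rfl rfl rfl hd0 rfl rfl))⟩
  · simp only [map_add, map_mul, hφ3, he]
    ring
  · simp only [map_add, map_mul, hφ3, he, hf]
    ring

/-- Removing the coordinate of `3a + 2b`. -/
theorem clear_f {a f : K} (ha : a ≠ 0) (hf : φ f = f) :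
    CG (twistedD4 K q) (pr φ a 0 0 0 0 f) (pr φ a 0 0 0 0 0) := by
  have h2 : (2 : K) = 0 := CharTwo.two_eq_zero
  have ha1 : φ a ≠ 0 := by simpa using ha
  have ha2 : φ (φ a) ≠ 0 := by simpa using ha
  set N := a * φ a * φ (φ a) with hN
  have hN0 : N ≠ 0 := mul_ne_zero (mul_ne_zero ha ha1) ha2
  have hF : ringChar K = 2 := ringChar.eq K 2
  obtain ⟨u, hu⟩ := FiniteField.isSquare_of_char_two hF (f / N)
  have hNf : φ N = N := by
    simp only [hN, map_mul, hφ3]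
    ring
  have hu1 : N * (u * u) = f := by
    rw [← hu]
    field_simp
  have hfu : φ u = u := by
    have h3 : φ u * φ u = u * u := by
      rw [← map_mul, ← hu, map_div₀, hf, hNf]
    have h4 : (φ u + u) * (φ u + u) = 0 := by
      linear_combination h3 + (φ u * u + u * u) * h2
    have h5 := mul_self_eq_zero.1 h4
    linear_combination h5 - u * h2
  have hy := cj_c φ hφ3 (a * u) a 0 0 f
  have e1 : φ a * φ (φ (a * u)) + φ (φ a) * φ (a * u) + 0 = 0 := by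
    simp only [map_mul, hfu]
    linear_combination (φ a * φ (φ a) * u) * h2
  have e2 : a * φ a * φ (φ (a * u)) + a * φ (φ a) * φ (a * u) + φ a * φ (φ a) * (a * u) + 0 = N * u := by
    simp only [map_mul, hfu, hN]
    linear_combination (a * φ a * φ (φ a) * u) * h2
  have e3 : a * φ (a * u) * φ (φ (a * u)) + φ a * (a * u) * φ (φ (a * u)) + φ (φ a) * (a * u) * φ (a * u) +
      0 * (a * u) + φ 0 * φ (a * u) + φ (φ 0) * φ (φ (a * u)) + f = 0 := by
    simp only [map_mul, hfu, map_zero]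
    rw [← hu1, hN]
    linear_combination (a * φ a * φ (φ a) * u * u * 2) * h2 - (a * φ a * φ (φ a) * u * u * 2) * h2 +
      (a * φ a * φ (φ a) * u * u * 2) * h2
  have step : CG (twistedD4 K q) (pr φ a 0 0 0 0 f) (pr φ a 0 0 0 (N * u) 0) :=
    cg_step (pr_mem hφ3 hρ hτ I 0 (a * u) 0 (map_zero φ) (map_zero φ) (map_zero φ)) (sq_c φ hφ3 (a * u))
      (hy.trans (pr_congr rfl rfl rfl e1 e2 e3))
  exact step.trans (clear_e hφ3 hρ hτ I ha (by simp only [map_mul, hNf, hfu]) 0)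

/-- The leading fundamental short root. -/
theorem tor_conj (hφ : ∀ t, φ t = t ^ q) {s c : K} (hs : s ≠ 0) (hc : c ≠ 0) (hfc : φ c = c) :
    ∃ g ∈ twistedD4 K q, ∀ (r : ℕ), r < chevD4.nroots → ∀ t : K, MulAut.conj g (Xr r t) =
      Xr r ((([1, 0, 2, 3] : List ℕ).map fun j => dP φ s c j ^ chevD4.cartan j r).prod * t) := by
  obtain ⟨h, hh⟩ := exists_Θ hφ hφ3 hρ hτ I (Units.mk0 s hs, ⟨Units.mk0 c hc, by
    rw [mem_fixU]
    simpa using hfc⟩)
  refine ⟨h.1, h.2.2, ?_⟩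
  intro r hr t
  have hne : ∀ j, dP φ s c j ≠ 0 := by
    intro j
    simp only [dP]
    split_ifs
    · exact hc
    · exact hs
    · simpa using hs
    · simpa using hs
  rw [MulAut.conj_apply, hh]
  simpa using torJ_conj sys (J := [1, 0, 2, 3]) (by decide) (d := dP φ s c) (fun i _ => hne i) hr t

theorem tor_a (hφ : ∀ t, φ t = t ^ q) {a : K} (ha : a ≠ 0) :
    CG (twistedD4 K q) (pr φ a 0 0 0 0 0) (pr φ 1 0 0 0 0 0) := by
  have hF : ringChar K = 2 := ringChar.eq K 2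
  obtain ⟨s, hs⟩ := FiniteField.isSquare_of_char_two hF a⁻¹
  have hs0 : s ≠ 0 := by
    rintro rfl
    rw [mul_zero] at hs
    exact inv_ne_zero ha hs
  have h1 : s * s * a = 1 := by
    rw [← hs]
    exact inv_mul_cancel₀ ha
  obtain ⟨g, hg, hc⟩ := tor_conj hφ3 hρ hτ I hφ hs0 (one_ne_zero (α := K)) (map_one φ)
  refine ⟨g, hg, ?_⟩
  rw [← MulAut.conj_apply]
  simp only [pr, map_mul, map_one, map_zero, X_zero, one_mul, mul_one]
  rw [hc 18 (by decide +kernel), hc 13 (by decide +kernel), hc 12 (by decide +kernel)]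
  have c1 : chevD4.cartan 1 18 = -1 ∧ chevD4.cartan 0 18 = 2 ∧ chevD4.cartan 2 18 = 0 ∧ chevD4.cartan 3 18 = 0 := by
    decide +kernel
  have c2 : chevD4.cartan 1 13 = -1 ∧ chevD4.cartan 0 13 = 0 ∧ chevD4.cartan 2 13 = 2 ∧ chevD4.cartan 3 13 = 0 := by
    decide +kernel
  have c3 : chevD4.cartan 1 12 = -1 ∧ chevD4.cartan 0 12 = 0 ∧ chevD4.cartan 2 12 = 0 ∧ chevD4.cartan 3 12 = 2 := by
    decide +kernel
  simp only [List.map_cons, List.map_nil, List.prod_cons, List.prod_nil, c1.1, c1.2.1, c1.2.2.1, c1.2.2.2, c2.1,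
    c2.2.1, c2.2.2.1, c2.2.2.2, c3.1, c3.2.1, c3.2.2.1, c3.2.2.2, dP]
  have e1 : φ s * φ s * φ a = 1 := by
    rw [← map_mul, ← map_mul, h1, map_one]
  have e2 : φ (φ s) * φ (φ s) * φ (φ a) = 1 := by
    rw [← map_mul, ← map_mul, e1, map_one]
  have z2 : ∀ x : K, x ^ (2 : ℤ) = x * x := fun x => zpow_two x
  simp [z2, map_one, mul_assoc]
  rw [show s * (s * a) = 1 by rw [← mul_assoc, h1], show φ s * (φ s * φ a) = 1 by rw [← mul_assoc, e1],
    show φ (φ s) * (φ (φ s) * φ (φ a)) = 1 by rw [← mul_assoc, e2]]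

theorem tor_b (hφ : ∀ t, φ t = t ^ q) {b : K} (hb0 : b ≠ 0) (hb : φ b = b) :
    CG (twistedD4 K q) (pr φ 0 b 0 0 0 0) (pr φ 0 1 0 0 0 0) := by
  have h2 : (2 : K) = 0 := CharTwo.two_eq_zero
  have hF : ringChar K = 2 := ringChar.eq K 2
  obtain ⟨s, hs⟩ := FiniteField.isSquare_of_char_two hF b⁻¹
  have hs0 : s ≠ 0 := by
    rintro rfl
    rw [mul_zero] at hs
    exact inv_ne_zero hb0 hs
  have h1 : s * (s * b) = 1 := by
    rw [← mul_assoc, ← hs]
    exact inv_mul_cancel₀ hb0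
  have hfs : φ s = s := by
    have h3 : φ s * φ s = s * s := by
      rw [← map_mul, ← hs, map_inv₀, hb]
    have h4 : (φ s + s) * (φ s + s) = 0 := by
      linear_combination h3 + (φ s * s + s * s) * h2
    have h5 := mul_self_eq_zero.1 h4
    linear_combination h5 - s * h2
  obtain ⟨g, hg, hc⟩ := tor_conj hφ3 hρ hτ I hφ (one_ne_zero (α := K)) hs0 hfs
  refine ⟨g, hg, ?_⟩
  rw [← MulAut.conj_apply]
  simp only [pr, map_mul, map_one, map_zero, X_zero, one_mul, mul_one]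
  rw [hc 14 (by decide +kernel)]
  have c1 : chevD4.cartan 1 14 = 2 ∧ chevD4.cartan 0 14 = -1 ∧ chevD4.cartan 2 14 = -1 ∧ chevD4.cartan 3 14 = -1 := by
    decide +kernel
  simp only [List.map_cons, List.map_nil, List.prod_cons, List.prod_nil, c1.1, c1.2.1, c1.2.2.1, c1.2.2.2, dP]
  have z2 : ∀ x : K, x ^ (2 : ℤ) = x * x := fun x => zpow_two x
  simp [z2, map_one, mul_assoc]
  rw [h1]

/-- An involution with nonzero coordinate at the fundamental short root. -/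
theorem lead_a (hφ : ∀ t, φ t = t ^ q) {a b : K} (ha : a ≠ 0) (hb : φ b = b) (c d : K) {e f : K} (he : φ e = e)
    (hf : φ f = f) (h : pr φ a b c d e f * pr φ a b c d e f = 1) :
    CG (twistedD4 K q) (pr φ a b c d e f) (pr φ 1 0 0 0 0 0) := by
  have h2 : (2 : K) = 0 := CharTwo.two_eq_zero
  obtain ⟨e1, e2, -, -⟩ := sq_eqs (pr_inj) φ hφ3 hb a c d e f h
  have hb0 : b = 0 := (mul_eq_zero.1 e1).resolve_left ha
  subst hb0
  have e2' : φ a * φ (φ c) = φ (φ a) * φ c := by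
    linear_combination e2 - (φ (φ a) * φ c) * h2
  obtain ⟨D, E, F, hE, hF, h1⟩ := step1 hφ3 hρ hτ I ha e2' d he hf
  have hsq := h1.sq h
  obtain ⟨-, -, e3, -⟩ := sq_eqs (pr_inj) φ hφ3 (map_zero φ) a 0 D E F hsq
  have e3' : a * D + φ a * φ D + φ (φ a) * φ (φ D) = 0 := by
    simpa using e3
  obtain ⟨E', F', hE', hF', h4⟩ := step2 hφ3 hρ hτ I ha e3' hE hF
  exact h1.trans (h4.trans ((clear_e hφ3 hρ hτ I ha hE' F').trans
    ((clear_f hφ3 hρ hτ I ha hF').trans (tor_a hφ3 hρ hτ I hφ ha))))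

/-- An involution with nonzero coordinate at the fundamental long root. -/
theorem lead_b (hφ : ∀ t, φ t = t ^ q) {b : K} (hb0 : b ≠ 0) (hb : φ b = b) (c d : K) {e f : K} (he : φ e = e)
    (hf : φ f = f) (h : pr φ 0 b c d e f * pr φ 0 b c d e f = 1) :
    CG (twistedD4 K q) (pr φ 0 b c d e f) (pr φ 1 0 0 0 0 0) ∨
    CG (twistedD4 K q) (pr φ 0 b c d e f) (pr φ 0 1 0 0 0 0) := by
  have h2 : (2 : K) = 0 := CharTwo.two_eq_zero
  obtain ⟨u, hu⟩ : ∃ u, b * u = c := ⟨c / b, mul_div_cancel₀ _ hb0⟩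
  have hc0 : b * u + c = 0 := by linear_combination hu + c * h2
  have hy := cj_a φ hφ3 u c d e f hb
  obtain ⟨D, E, F, hE, hF, h1⟩ : ∃ D E F, φ E = E ∧ φ F = F ∧
      CG (twistedD4 K q) (pr φ 0 b c d e f) (pr φ 0 b 0 D E F) := by
    refine ⟨_, _, _, ?_, ?_, cg_step (pr_mem hφ3 hρ hτ I u 0 0 (map_zero φ) (map_zero φ) (map_zero φ)) (sq_a φ hφ3 u)
      (hy.trans (pr_congr rfl rfl hc0 rfl rfl rfl))⟩
    · simp only [map_add, map_mul, hφ3, hb, he]
      ring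
    · simp only [map_add, map_mul, hφ3, hb, he, hf]
      ring
  have hsq := h1.sq h
  obtain ⟨-, -, -, e6⟩ := sq_eqs (pr_inj) φ hφ3 hb 0 0 D E F hsq
  have hE0 : E = 0 := by
    have : b * E = 0 := by simpa using e6
    exact (mul_eq_zero.1 this).resolve_left hb0
  subst hE0
  obtain ⟨v, hv⟩ : ∃ v, b * v = F := ⟨F / b, mul_div_cancel₀ _ hb0⟩
  have hfv : φ v = v := by
    have h5 : b * φ v = F := by
      have := congrArg φ hv
      rwa [map_mul, hb, hF] at this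
    exact mul_left_cancel₀ hb0 (h5.trans hv.symm)
  have hf0 : b * v + F = 0 := by linear_combination hv + F * h2
  have h3 : CG (twistedD4 K q) (pr φ 0 b 0 D 0 F) (pr φ 0 b 0 D 0 0) :=
    cg_step (pr_mem hφ3 hρ hτ I 0 0 0 (map_zero φ) hfv (map_zero φ)) (sq_e φ hφ3 v)
      ((cj_e φ hφ3 v D F hb).trans (pr_congr rfl rfl rfl rfl rfl hf0))
  have h4 := h1.trans h3
  by_cases hD : D = 0
  · subst hD
    right
    exact h4.trans (tor_b hφ3 hρ hτ I hφ hb0 hb)
  · left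
    have h5 : CG (twistedD4 K q) (pr φ 0 b 0 D 0 0) (pr φ D 0 0 0 0 b) := by
      have a1 : CG (twistedD4 K q) (pr φ 0 b 0 D 0 0) (pr φ 0 0 D 0 b 0) := ⟨Na, Na_mem I, conj_a' φ b D⟩
      have a2 : CG (twistedD4 K q) (pr φ 0 0 D 0 b 0) (pr φ D 0 0 0 0 b) := ⟨Nb, Nb_mem I, conj_b φ D 0 b 0⟩
      exact a1.trans a2
    have h6 := h4.trans h5
    exact h6.trans (lead_a hφ3 hρ hτ I hφ hD (map_zero φ) 0 0 (map_zero φ) hb (h6.sq h))

/-- The classification of the involutions of the normal form. -/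
theorem cls (hφ : ∀ t, φ t = t ^ q) {a b : K} (c d : K) {e f : K} (hb : φ b = b) (he : φ e = e) (hf : φ f = f)
    (h : pr φ a b c d e f * pr φ a b c d e f = 1) (hne : pr φ a b c d e f ≠ 1) :
    CG (twistedD4 K q) (pr φ a b c d e f) (pr φ 1 0 0 0 0 0) ∨
    CG (twistedD4 K q) (pr φ a b c d e f) (pr φ 0 1 0 0 0 0) := by
  by_cases ha : a = 0
  swap
  · exact Or.inl (lead_a hφ3 hρ hτ I hφ ha hb c d he hf h)
  subst ha
  by_cases hb0 : b = 0
  swap
  · exact lead_b hφ3 hρ hτ I hφ hb0 hb c d he hf h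
  subst hb0
  by_cases hc : c = 0
  · subst hc
    have h1 : CG (twistedD4 K q) (pr φ 0 0 0 d e f) (pr φ 0 e d 0 0 f) := ⟨Na, Na_mem I, conj_a φ d e f⟩
    by_cases he0 : e = 0
    · subst he0
      by_cases hd : d = 0
      · subst hd
        have hf0 : f ≠ 0 := by
          rintro rfl
          exact hne (pr_zero φ)
        have a2 : CG (twistedD4 K q) (pr φ 0 0 0 0 0 f) (pr φ 0 0 0 0 f 0) := ⟨Nb, Nb_mem I, conj_b φ 0 0 0 f⟩
        have a3 : CG (twistedD4 K q) (pr φ 0 0 0 0 f 0) (pr φ 0 f 0 0 0 0) := ⟨Na, Na_mem I, conj_a φ 0 f 0⟩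
        exact Or.inr ((a2.trans a3).trans (tor_b hφ3 hρ hτ I hφ hf0 hf))
      · have a2 : CG (twistedD4 K q) (pr φ 0 0 d 0 0 f) (pr φ d 0 0 0 f 0) := ⟨Nb, Nb_mem I, conj_b φ d 0 0 f⟩
        have a3 := h1.trans a2
        exact Or.inl (a3.trans (lead_a hφ3 hρ hτ I hφ hd (map_zero φ) 0 0 hf (map_zero φ) (a3.sq h)))
    · rcases lead_b hφ3 hρ hτ I hφ he0 he d 0 (map_zero φ) hf (h1.sq h) with h2 | h2
      · exact Or.inl (h1.trans h2)
      · exact Or.inr (h1.trans h2)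
  · have a2 : CG (twistedD4 K q) (pr φ 0 0 c d e f) (pr φ c 0 0 d f e) := ⟨Nb, Nb_mem I, conj_b φ c d e f⟩
    exact Or.inl (a2.trans (lead_a hφ3 hρ hτ I hφ hc (map_zero φ) 0 d hf he (a2.sq h)))

end Main

end Cfsg.Agent.Lib.Tw3D4
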