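import Cfsg.Agent.Lib.Tw3D4.Class

/-!
# The two classes of involutions of `³D₄(q)`, characteristic two
-/

set_option autoImplicit false
set_option maxRecDepth 1000000
set_option linter.unusedSectionVars false
set_option linter.unusedVariables false
set_option linter.unusedSimpArgs false

namespace Cfsg.Agent.Lib.Tw3D4

open Cfsg.Lie Cfsg.Agent.Lib.ChevBN.Elem Cfsg.Agent.Lib.ChevBN.Table Cfsg.Agent.Lib.ChevBN.Rel
open Cfsg.Agent.Lib.ChevBN.FastData Cfsg.Agent.Lib.ChevBN.Collect Cfsg.Agent.Lib.ChevBN.Opp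
open Cfsg.Agent.Lib.Invol.Walk Cfsg.Agent.Lib.Invol.BitRank
open Cfsg.Agent.Lib.Twisted Cfsg.Agent.Lib.Twisted.D4
open Cfsg.Agent.Lib.Chevalley.Tbl.D4 (sys)

/-- A rank certificate. -/
def certB : List (ℕ × ℕ × ℕ) :=
  [
    (0x1, 0x40000, 18),
    (0x10, 0x20, 5),
    (0x100, 0x200, 9),
    (0x800, 0x4000, 14),
    (0x1000, 0x8000, 15),
    (0x2001, 0x2, 1),
    (0x10000, 0x80000, 19),
    (0x20000, 0x100000, 20),
    (0x400000, 0x800000, 23),
    (0x4000000, 0x8000000, 27)]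

theorem chk_certB : chkRank chevD4 [14] certB = true := by decide +kernel

/-- A rank certificate. -/
def certA : List (ℕ × ℕ × ℕ) :=
  [
    (0x2, 0x430000, 16),
    (0x20, 0x3dc0, 6),
    (0x40, 0x2900, 8),
    (0xc0, 0x1800, 11),
    (0x100, 0x2000, 13),
    (0x200, 0x400001, 0),
    (0x4000, 0x20004, 2),
    (0x8002, 0x420008, 3),
    (0x40000, 0x7b80000, 19),
    (0x80000, 0x5200000, 21),
    (0x180000, 0x3000000, 24),
    (0x200000, 0x4000000, 26)]

theorem chk_certA : chkRank chevD4 [18, 13, 12] certA = true := by decide +kernel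


variable {K : Type*} [Field K] [CharP K 2]

set_option quotPrecheck false in
/-- The root elements. -/
local notation "Xr" => X (sys (F := _)).toAddRel

theorem rB_eq (φ : K →+* K) : pr φ 0 1 0 0 0 0 = Tr (sys (F := K)).toAddRel [14] := by
  simp [pr, Tr]

theorem rA_eq (φ : K →+* K) : pr φ 1 0 0 0 0 0 = Tr (sys (F := K)).toAddRel [18, 13, 12] := by
  simp [pr, Tr]

theorem rank_rB (φ : K →+* K) :
    (((pr φ 0 1 0 0 0 0 : GL chevD4.Idx K) : Matrix chevD4.Idx chevD4.Idx K) - 1).rank = certB.length := by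
  rw [rB_eq]
  exact rank_eq _ chk_certB

theorem rank_rA (φ : K →+* K) :
    (((pr φ 1 0 0 0 0 0 : GL chevD4.Idx K) : Matrix chevD4.Idx chevD4.Idx K) - 1).rank = certA.length := by
  rw [rA_eq]
  exact rank_eq _ chk_certA

theorem len_ne : certB.length ≠ certA.length := by decide +kernel

section Main

variable [Fintype K] {q : ℕ} {φ : K →+* K} {T : Tw (sys (F := K)).toAddRel}
  (hφ : ∀ t, φ t = t ^ q) (hφ3 : ∀ t, φ (φ (φ t)) = t) (hρ : T.ρ = ρ0)
  (hτ : ∀ r t, T.τ r t = ((ε0 r : ℤ) : K) * φ t)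
  (I : Inst sys tbl_chevD4 T Js cl (twistedD4 K q))

include hφ hφ3 hρ hτ I in
/-- The elements of `U¹` have the normal form. -/
theorem exists_pr (hq : IsPrimePow q) (hK : Fintype.card K = q ^ 3) {x : GL chevD4.Idx K}
    (hx : x ∈ chevD4.posUnipotent K ⊓ twistedD4 K q) :
    ∃ a b c d e f, φ b = b ∧ φ e = e ∧ φ f = f ∧ x = pr φ a b c d e f := by
  classical
  have hfix : ∀ y : {y : K // y ^ q = y}, φ y.1 = y.1 := fun y => by rw [hφ, y.2]
  let g : K × {y : K // y ^ q = y} × K × K × {y : K // y ^ q = y} × {y : K // y ^ q = y} →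
      ↥(chevD4.posUnipotent K ⊓ twistedD4 K q) := fun p =>
    ⟨pr φ p.1 p.2.1.1 p.2.2.1 p.2.2.2.1 p.2.2.2.2.1.1 p.2.2.2.2.2.1,
      pr_U φ _ _ _ _ _ _, pr_mem hφ3 hρ hτ I _ _ _ (hfix _) (hfix _) (hfix _)⟩
  have hinj : Function.Injective g := by
    rintro ⟨a, b, c, d, e, f⟩ ⟨a', b', c', d', e', f'⟩ h
    have h1 := pr_inj φ (congrArg Subtype.val h)
    obtain ⟨h1, h2, h3, h4, h5, h6⟩ := h1
    simp only [Prod.mk.injEq]
    exact ⟨h1, Subtype.ext h2, h3, h4, Subtype.ext h5, Subtype.ext h6⟩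
  have hcard : Nat.card ↥(chevD4.posUnipotent K ⊓ twistedD4 K q) ≤
      Nat.card (K × {y : K // y ^ q = y} × K × K × {y : K // y ^ q = y} × {y : K // y ^ q = y}) := by
    rw [card_U hq hK]
    simp only [Nat.card_prod, Nat.card_eq_fintype_card (α := K), hK, card_fixed_pow hq.two_le hK]
    apply le_of_eq
    ring
  have hb := hinj.bijective_of_nat_card_le hcard
  obtain ⟨⟨a, b, c, d, e, f⟩, hp⟩ := hb.2 ⟨x, hx⟩
  exact ⟨a, b.1, c, d, e.1, f.1, hfix b, hfix e, hfix f, (congrArg Subtype.val hp).symm⟩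

/-- The conjugates of an involution in the unipotent group. -/
theorem conj_U1 {m : ℕ} (hm : m ≠ 0) (hqm : q = 2 ^ m) (hK : Fintype.card K = q ^ 3) {g : GL chevD4.Idx K}
    (hg : g ∈ twistedD4 K q) (h2 : g * g = 1) :
    ∃ h ∈ twistedD4 K q, h * g * h⁻¹ ∈ chevD4.posUnipotent K ⊓ twistedD4 K q := by
  classical
  have : Fact (Nat.Prime 2) := ⟨Nat.prime_two⟩
  have hq : IsPrimePow q := by
    rw [hqm]
    exact Nat.prime_two.isPrimePow.pow hm
  set S : Subgroup ↥(twistedD4 K q) := (chevD4.posUnipotent K ⊓ twistedD4 K q).subgroupOf (twistedD4 K q) with hS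
  have hle : chevD4.posUnipotent K ⊓ twistedD4 K q ≤ twistedD4 K q := inf_le_right
  have hcS : Nat.card S = q ^ 12 := by
    rw [hS, Nat.card_congr (Subgroup.subgroupOfEquivOfLe hle).toEquiv, card_U hq hK]
  have hpS : IsPGroup 2 ↥S := by
    apply IsPGroup.of_card (n := m * 12)
    rw [hcS, hqm, pow_mul]
  have hev : 2 ∣ q := by
    rw [hqm]
    exact dvd_pow_self 2 hm
  have hq2 := hq.two_le
  have hidx : ¬ 2 ∣ S.index := by
    have h1 := Subgroup.card_mul_index S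
    rw [hcS, card_main' hq hK, mul_assoc, mul_assoc] at h1
    have hpos : 0 < q ^ 12 := by positivity
    have h3 := Nat.eq_of_mul_eq_mul_left hpos h1
    rw [h3]
    have odd1 : ∀ k : ℕ, k ≠ 0 → ¬ 2 ∣ q ^ k - 1 := by
      intro k hk hd
      have h4 : 2 ∣ q ^ k := dvd_trans hev (dvd_pow_self q hk)
      have h5 : 1 ≤ q ^ k := Nat.one_le_pow _ _ (by omega)
      have h6 := (Nat.dvd_sub h4 hd)
      rw [Nat.sub_sub_self h5] at h6
      omega
    intro hd
    rcases (Nat.prime_two.dvd_mul).1 hd with hd | hd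
    · exact odd1 2 (by norm_num) hd
    rcases (Nat.prime_two.dvd_mul).1 hd with hd | hd
    · exact odd1 6 (by norm_num) hd
    · have h4 : 2 ∣ q ^ 8 + q ^ 4 := dvd_add (dvd_trans hev (dvd_pow_self q (by norm_num)))
        (dvd_trans hev (dvd_pow_self q (by norm_num)))
      have h5 := (Nat.dvd_add_right h4).1 hd
      omega
  set g' : ↥(twistedD4 K q) := ⟨g, hg⟩ with hg'
  have hg2 : g' * g' = 1 := Subtype.ext h2
  have hpg : IsPGroup 2 ↥(Subgroup.zpowers g') := by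
    rintro ⟨x, k, rfl⟩
    refine ⟨1, Subtype.ext ?_⟩
    have : g' ^ (2 : ℕ) = 1 := by rw [pow_two, hg2]
    simp only [pow_one, Subgroup.coe_pow, OneMemClass.coe_one]
    show (g' ^ k) ^ 2 = 1
    rw [← zpow_natCast, ← zpow_mul, mul_comm, zpow_mul, zpow_natCast, this, one_zpow]
  obtain ⟨S', hS'⟩ := hpg.exists_le_sylow
  set P : Sylow 2 ↥(twistedD4 K q) := hpS.toSylow hidx with hP
  obtain ⟨x, hx⟩ := MulAction.exists_smul_eq (↥(twistedD4 K q)) S' P
  refine ⟨(x : GL chevD4.Idx K), x.2, ?_⟩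
  have h3 : g' ∈ (S' : Subgroup ↥(twistedD4 K q)) := hS' (Subgroup.mem_zpowers g')
  have h4 : x * g' * x⁻¹ ∈ (P : Subgroup ↥(twistedD4 K q)) := by
    rw [← hx, Sylow.coe_subgroup_smul]
    exact ⟨_, h3, rfl⟩
  have h5 : x * g' * x⁻¹ ∈ S := by
    rw [hP] at h4
    simpa using h4
  rw [hS, Subgroup.mem_subgroupOf] at h5
  simpa using h5

include hφ hφ3 hρ hτ I in
/-- The classification of the involutions. -/
theorem invol_cls {m : ℕ} (hm : m ≠ 0) (hqm : q = 2 ^ m) (hK : Fintype.card K = q ^ 3) {g : GL chevD4.Idx K}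
    (hg : g ∈ twistedD4 K q) (h2 : g * g = 1) (hne : g ≠ 1) :
    CG (twistedD4 K q) g (pr φ 1 0 0 0 0 0) ∨ CG (twistedD4 K q) g (pr φ 0 1 0 0 0 0) := by
  have hq : IsPrimePow q := by
    rw [hqm]
    exact Nat.prime_two.isPrimePow.pow hm
  obtain ⟨h, hh, hU⟩ := conj_U1 hm hqm hK hg h2
  obtain ⟨a, b, c, d, e, f, hb, he, hf, hx⟩ := exists_pr hφ hφ3 hρ hτ I hq hK hU
  have h1 : CG (twistedD4 K q) g (pr φ a b c d e f) := ⟨h, hh, hx⟩
  have hne' : pr φ a b c d e f ≠ 1 := by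
    rw [← hx]
    intro h3
    apply hne
    have h4 : g = h⁻¹ * (h * g * h⁻¹) * h := by group
    rw [h4, h3]
    group
  rcases cls hφ3 hρ hτ I hφ c d hb he hf (h1.sq h2) hne' with h3 | h3
  · exact Or.inl (h1.trans h3)
  · exact Or.inr (h1.trans h3)

include hφ3 hρ hτ I in
/-- The two classes. -/
theorem classes_of {m : ℕ} (hm : m ≠ 0) (hqm : q = 2 ^ m) (hK : Fintype.card K = q ^ 3) (hφ : ∀ t, φ t = t ^ q) :
    (ConjClasses.mk '' {g : ↥(twistedD4 K q) | orderOf g = 2}).ncard = 2 := by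
  classical
  have : Fact (Nat.Prime 2) := ⟨Nat.prime_two⟩
  have hmA := pr_mem hφ3 hρ hτ I (1 : K) 0 0 (b := 0) (e := 0) (f := 0) (map_zero φ) (map_zero φ) (map_zero φ)
  have hmB := pr_mem hφ3 hρ hτ I (0 : K) 0 0 (b := 1) (e := 0) (f := 0) (map_one φ) (map_zero φ) (map_zero φ)
  set rA : ↥(twistedD4 K q) := ⟨_, hmA⟩ with hrA
  set rB : ↥(twistedD4 K q) := ⟨_, hmB⟩ with hrB
  have h01 : (1 : K) ≠ 0 := one_ne_zero
  have hne1A : rA ≠ 1 := by
    intro h
    have h1 := congrArg Subtype.val h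
    have h2 : pr φ 1 0 0 0 0 0 = pr φ 0 0 0 0 0 0 := by
      rw [pr_zero]
      exact h1
    exact h01 (pr_inj φ h2).1
  have hne1B : rB ≠ 1 := by
    intro h
    have h1 := congrArg Subtype.val h
    have h2 : pr φ 0 1 0 0 0 0 = pr φ 0 0 0 0 0 0 := by
      rw [pr_zero]
      exact h1
    exact h01 (pr_inj φ h2).2.1
  have hoA : orderOf rA = 2 := by
    apply orderOf_eq_prime _ hne1A
    rw [pow_two]
    exact Subtype.ext (sq_a φ hφ3 1)
  have hoB : orderOf rB = 2 := by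
    apply orderOf_eq_prime _ hne1B
    rw [pow_two]
    exact Subtype.ext (sq_b φ hφ3 (map_one φ))
  have hne : ConjClasses.mk rA ≠ ConjClasses.mk rB := by
    intro h
    rw [ConjClasses.mk_eq_mk_iff_isConj] at h
    obtain ⟨c, hc⟩ := isConj_iff.mp h
    have h1 := congrArg Subtype.val hc
    have h2 : (c : GL chevD4.Idx K) * pr φ 1 0 0 0 0 0 * (c : GL chevD4.Idx K)⁻¹ = pr φ 0 1 0 0 0 0 := by
      simpa using h1
    have h3 := rank_conj (c : GL chevD4.Idx K) (pr φ 1 0 0 0 0 0)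
    rw [h2, rank_rA, rank_rB] at h3
    exact len_ne h3
  have hset : ConjClasses.mk '' {g : ↥(twistedD4 K q) | orderOf g = 2} = {ConjClasses.mk rA, ConjClasses.mk rB} := by
    ext x
    simp only [Set.mem_image, Set.mem_setOf_eq, Set.mem_insert_iff, Set.mem_singleton_iff]
    constructor
    · rintro ⟨g, hg, rfl⟩
      have hg2 : (g : GL chevD4.Idx K) * g = 1 := by
        have := pow_orderOf_eq_one g
        rw [hg, pow_two] at this
        exact congrArg Subtype.val this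
      have hg1 : (g : GL chevD4.Idx K) ≠ 1 := by
        intro h
        have : g = 1 := Subtype.ext h
        rw [this, orderOf_one] at hg
        omega
      rcases invol_cls hφ hφ3 hρ hτ I hm hqm hK g.2 hg2 hg1 with ⟨c, hc, e⟩ | ⟨c, hc, e⟩
      · left
        rw [ConjClasses.mk_eq_mk_iff_isConj]
        exact isConj_iff.mpr ⟨⟨c, hc⟩, Subtype.ext e⟩
      · right
        rw [ConjClasses.mk_eq_mk_iff_isConj]
        exact isConj_iff.mpr ⟨⟨c, hc⟩, Subtype.ext e⟩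
    · rintro (rfl | rfl)
      · exact ⟨rA, hoA, rfl⟩
      · exact ⟨rB, hoB, rfl⟩
  rw [hset, Set.ncard_pair hne]

end Main

/-- `q` is a power of two. -/
theorem q_form [Fintype K] {q : ℕ} (hK : Fintype.card K = q ^ 3) : ∃ m, m ≠ 0 ∧ q = 2 ^ m := by
  obtain ⟨n, hprime, hn⟩ := FiniteField.card K 2
  have h1 : q ^ 3 = 2 ^ (n : ℕ) := by rw [← hK, hn]
  have h2 : q ∣ 2 ^ (n : ℕ) := by
    rw [← h1]
    exact dvd_pow_self _ (by norm_num)
  obtain ⟨m, -, rfl⟩ := (Nat.dvd_prime_pow Nat.prime_two).1 h2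
  refine ⟨m, ?_, rfl⟩
  rintro rfl
  have h3 : (2 : ℕ) ^ (n : ℕ) = 1 := by
    rw [← h1]
    simp
  have h4 : 2 ≤ 2 ^ (n : ℕ) := by
    calc 2 = 2 ^ 1 := by norm_num
      _ ≤ 2 ^ (n : ℕ) := Nat.pow_le_pow_right (by norm_num) n.2
  omega

/-- `³D₄(q)`, `q` even, has exactly two classes of involutions. -/
theorem classes [Fintype K] {q : ℕ} (hK : Fintype.card K = q ^ 3) :
    (ConjClasses.mk '' {g : ↥(twistedD4 K q) | orderOf g = 2}).ncard = 2 := by
  obtain ⟨m, hm, hqm⟩ := q_form hK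
  have hq : IsPrimePow q := by
    rw [hqm]
    exact Nat.prime_two.isPrimePow.pow hm
  obtain ⟨φ, T, hφ, hφ3, hρ, hτ, I⟩ := main hq hK
  exact classes_of hφ3 hρ hτ I hm hqm hK hφ

end Cfsg.Agent.Lib.Tw3D4
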