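import Cfsg.Agent.Lib.Tw3D4.Law

/-!
# Conjugation formulas in the unipotent subgroup of `³D₄(q)`, characteristic two
-/

set_option autoImplicit false
set_option maxRecDepth 1000000
set_option linter.unusedSectionVars false
set_option linter.unreachableTactic false
set_option linter.unusedTactic false
set_option linter.unusedVariables false
set_option linter.unusedSimpArgs false

namespace Cfsg.Agent.Lib.Tw3D4

open Cfsg.Lie Cfsg.Agent.Lib.ChevBN.Elem

variable {K : Type*} [Field K] [CharP K 2]

theorem pr_zero (φ : K →+* K) : pr φ 0 0 0 0 0 0 = 1 := by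
  simp [pr]


theorem sq_a (φ : K →+* K) (hφ3 : ∀ t, φ (φ (φ t)) = t) (w : K)  :
    pr φ (w) (0) (0) (0) (0) (0) * pr φ (w) (0) (0) (0) (0) (0) = 1 := by
  have h2 : (2 : K) = 0 := CharTwo.two_eq_zero
  rw [pr_mul φ hφ3 (b := 0) (by simp only [map_add, map_mul, map_zero]), ← pr_zero φ]
  apply pr_congr
  · (try simp only [lawD, lawE, lawF, map_add, map_mul, map_zero, hφ3])
    (try linear_combination (w) * h2)
  · (try simp only [lawD, lawE, lawF, map_add, map_mul, map_zero, hφ3])
    (try linear_combination (0) * h2)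
  · (try simp only [lawD, lawE, lawF, map_add, map_mul, map_zero, hφ3])
    (try linear_combination (0) * h2)
  · (try simp only [lawD, lawE, lawF, map_add, map_mul, map_zero, hφ3])
    (try linear_combination (0) * h2)
  · (try simp only [lawD, lawE, lawF, map_add, map_mul, map_zero, hφ3])
    (try linear_combination (0) * h2)
  · (try simp only [lawD, lawE, lawF, map_add, map_mul, map_zero, hφ3])
    (try linear_combination (0) * h2)

theorem sq_b (φ : K →+* K) (hφ3 : ∀ t, φ (φ (φ t)) = t) {u : K} (hu : φ u = u) :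
    pr φ (0) (u) (0) (0) (0) (0) * pr φ (0) (u) (0) (0) (0) (0) = 1 := by
  have h2 : (2 : K) = 0 := CharTwo.two_eq_zero
  rw [pr_mul φ hφ3 (b := u) (by simp only [map_add, map_mul, map_zero, hu]), ← pr_zero φ]
  apply pr_congr
  · (try simp only [lawD, lawE, lawF, map_add, map_mul, map_zero, hφ3, hu])
    (try linear_combination (0) * h2)
  · (try simp only [lawD, lawE, lawF, map_add, map_mul, map_zero, hφ3, hu])
    (try linear_combination (u) * h2)
  · (try simp only [lawD, lawE, lawF, map_add, map_mul, map_zero, hφ3, hu])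
    (try linear_combination (0) * h2)
  · (try simp only [lawD, lawE, lawF, map_add, map_mul, map_zero, hφ3, hu])
    (try linear_combination (0) * h2)
  · (try simp only [lawD, lawE, lawF, map_add, map_mul, map_zero, hφ3, hu])
    (try linear_combination (0) * h2)
  · (try simp only [lawD, lawE, lawF, map_add, map_mul, map_zero, hφ3, hu])
    (try linear_combination (0) * h2)

theorem sq_c (φ : K →+* K) (hφ3 : ∀ t, φ (φ (φ t)) = t) (w : K)  :
    pr φ (0) (0) (w) (0) (0) (0) * pr φ (0) (0) (w) (0) (0) (0) = 1 := by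
  have h2 : (2 : K) = 0 := CharTwo.two_eq_zero
  rw [pr_mul φ hφ3 (b := 0) (by simp only [map_add, map_mul, map_zero]), ← pr_zero φ]
  apply pr_congr
  · (try simp only [lawD, lawE, lawF, map_add, map_mul, map_zero, hφ3])
    (try linear_combination (0) * h2)
  · (try simp only [lawD, lawE, lawF, map_add, map_mul, map_zero, hφ3])
    (try linear_combination (0) * h2)
  · (try simp only [lawD, lawE, lawF, map_add, map_mul, map_zero, hφ3])
    (try linear_combination (w) * h2)
  · (try simp only [lawD, lawE, lawF, map_add, map_mul, map_zero, hφ3])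
    (try linear_combination (0) * h2)
  · (try simp only [lawD, lawE, lawF, map_add, map_mul, map_zero, hφ3])
    (try linear_combination (0) * h2)
  · (try simp only [lawD, lawE, lawF, map_add, map_mul, map_zero, hφ3])
    (try linear_combination (0) * h2)

theorem sq_d (φ : K →+* K) (hφ3 : ∀ t, φ (φ (φ t)) = t) (w : K)  :
    pr φ (0) (0) (0) (w) (0) (0) * pr φ (0) (0) (0) (w) (0) (0) = 1 := by
  have h2 : (2 : K) = 0 := CharTwo.two_eq_zero
  rw [pr_mul φ hφ3 (b := 0) (by simp only [map_add, map_mul, map_zero]), ← pr_zero φ]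
  apply pr_congr
  · (try simp only [lawD, lawE, lawF, map_add, map_mul, map_zero, hφ3])
    (try linear_combination (0) * h2)
  · (try simp only [lawD, lawE, lawF, map_add, map_mul, map_zero, hφ3])
    (try linear_combination (0) * h2)
  · (try simp only [lawD, lawE, lawF, map_add, map_mul, map_zero, hφ3])
    (try linear_combination (0) * h2)
  · (try simp only [lawD, lawE, lawF, map_add, map_mul, map_zero, hφ3])
    (try linear_combination (w) * h2)
  · (try simp only [lawD, lawE, lawF, map_add, map_mul, map_zero, hφ3])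
    (try linear_combination (0) * h2)
  · (try simp only [lawD, lawE, lawF, map_add, map_mul, map_zero, hφ3])
    (try linear_combination (0) * h2)

theorem sq_e (φ : K →+* K) (hφ3 : ∀ t, φ (φ (φ t)) = t) (u : K)  :
    pr φ (0) (0) (0) (0) (u) (0) * pr φ (0) (0) (0) (0) (u) (0) = 1 := by
  have h2 : (2 : K) = 0 := CharTwo.two_eq_zero
  rw [pr_mul φ hφ3 (b := 0) (by simp only [map_add, map_mul, map_zero]), ← pr_zero φ]
  apply pr_congr
  · (try simp only [lawD, lawE, lawF, map_add, map_mul, map_zero, hφ3])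
    (try linear_combination (0) * h2)
  · (try simp only [lawD, lawE, lawF, map_add, map_mul, map_zero, hφ3])
    (try linear_combination (0) * h2)
  · (try simp only [lawD, lawE, lawF, map_add, map_mul, map_zero, hφ3])
    (try linear_combination (0) * h2)
  · (try simp only [lawD, lawE, lawF, map_add, map_mul, map_zero, hφ3])
    (try linear_combination (0) * h2)
  · (try simp only [lawD, lawE, lawF, map_add, map_mul, map_zero, hφ3])
    (try linear_combination (u) * h2)
  · (try simp only [lawD, lawE, lawF, map_add, map_mul, map_zero, hφ3])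
    (try linear_combination (0) * h2)

theorem cj_b (φ : K →+* K) (hφ3 : ∀ t, φ (φ (φ t)) = t) {u : K} (a c d e f : K) (hu : φ u = u) :
    pr φ (0) (u) (0) (0) (0) (0) * pr φ (a) (0) (c) (d) (e) (f) * pr φ (0) (u) (0) (0) (0) (0) = pr φ (a) (0) (a * u + c) ((φ a) * (φ (φ a)) * u + d) (a * (φ a) * (φ (φ a)) * u + e) (a * (φ a) * (φ (φ c)) * u + a * (φ (φ a)) * (φ c) * u + (φ a) * (φ (φ a)) * c * u + e * u + f) := by
  have h2 : (2 : K) = 0 := CharTwo.two_eq_zero
  rw [pr_mul φ hφ3 (b := u) (by simp only [map_add, map_mul, map_zero, hu]), pr_mul φ hφ3 (b := u + 0) (by simp only [map_add, map_mul, map_zero, hu])]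
  apply pr_congr
  · (try simp only [lawD, lawE, lawF, map_add, map_mul, map_zero, hφ3, hu])
    (try linear_combination (0) * h2)
  · (try simp only [lawD, lawE, lawF, map_add, map_mul, map_zero, hφ3, hu])
    (try linear_combination (u) * h2)
  · (try simp only [lawD, lawE, lawF, map_add, map_mul, map_zero, hφ3, hu])
    (try linear_combination (0) * h2)
  · (try simp only [lawD, lawE, lawF, map_add, map_mul, map_zero, hφ3, hu])
    (try linear_combination (0) * h2)
  · (try simp only [lawD, lawE, lawF, map_add, map_mul, map_zero, hφ3, hu])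
    (try linear_combination (0) * h2)
  · (try simp only [lawD, lawE, lawF, map_add, map_mul, map_zero, hφ3, hu])
    (try linear_combination (a * (φ a) * (φ (φ a)) * u * u) * h2)

theorem cj_c (φ : K →+* K) (hφ3 : ∀ t, φ (φ (φ t)) = t) (w a d e f : K)  :
    pr φ (0) (0) (w) (0) (0) (0) * pr φ (a) (0) (0) (d) (e) (f) * pr φ (0) (0) (w) (0) (0) (0) = pr φ (a) (0) (0) ((φ a) * (φ (φ w)) + (φ (φ a)) * (φ w) + d) (a * (φ a) * (φ (φ w)) + a * (φ (φ a)) * (φ w) + (φ a) * (φ (φ a)) * w + e) (a * (φ w) * (φ (φ w)) + (φ a) * w * (φ (φ w)) + (φ (φ a)) * w * (φ w) + d * w + (φ d) * (φ w) + (φ (φ d)) * (φ (φ w)) + f) := by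
  have h2 : (2 : K) = 0 := CharTwo.two_eq_zero
  rw [pr_mul φ hφ3 (b := 0) (by simp only [map_add, map_mul, map_zero]), pr_mul φ hφ3 (b := 0 + 0) (by simp only [map_add, map_mul, map_zero])]
  apply pr_congr
  · (try simp only [lawD, lawE, lawF, map_add, map_mul, map_zero, hφ3])
    (try linear_combination (0) * h2)
  · (try simp only [lawD, lawE, lawF, map_add, map_mul, map_zero, hφ3])
    (try linear_combination (0) * h2)
  · (try simp only [lawD, lawE, lawF, map_add, map_mul, map_zero, hφ3])
    (try linear_combination (w) * h2)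
  · (try simp only [lawD, lawE, lawF, map_add, map_mul, map_zero, hφ3])
    (try linear_combination (0) * h2)
  · (try simp only [lawD, lawE, lawF, map_add, map_mul, map_zero, hφ3])
    (try linear_combination (0) * h2)
  · (try simp only [lawD, lawE, lawF, map_add, map_mul, map_zero, hφ3])
    (try linear_combination (a * (φ w) * (φ (φ w)) + (φ a) * w * (φ (φ w)) + (φ (φ a)) * w * (φ w)) * h2)

theorem cj_d (φ : K →+* K) (hφ3 : ∀ t, φ (φ (φ t)) = t) (v a e f : K)  :
    pr φ (0) (0) (0) (v) (0) (0) * pr φ (a) (0) (0) (0) (e) (f) * pr φ (0) (0) (0) (v) (0) (0) = pr φ (a) (0) (0) (0) (a * v + (φ a) * (φ v) + (φ (φ a)) * (φ (φ v)) + e) (f) := by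
  have h2 : (2 : K) = 0 := CharTwo.two_eq_zero
  rw [pr_mul φ hφ3 (b := 0) (by simp only [map_add, map_mul, map_zero]), pr_mul φ hφ3 (b := 0 + 0) (by simp only [map_add, map_mul, map_zero])]
  apply pr_congr
  · (try simp only [lawD, lawE, lawF, map_add, map_mul, map_zero, hφ3])
    (try linear_combination (0) * h2)
  · (try simp only [lawD, lawE, lawF, map_add, map_mul, map_zero, hφ3])
    (try linear_combination (0) * h2)
  · (try simp only [lawD, lawE, lawF, map_add, map_mul, map_zero, hφ3])
    (try linear_combination (0) * h2)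
  · (try simp only [lawD, lawE, lawF, map_add, map_mul, map_zero, hφ3])
    (try linear_combination (v) * h2)
  · (try simp only [lawD, lawE, lawF, map_add, map_mul, map_zero, hφ3])
    (try linear_combination (0) * h2)
  · (try simp only [lawD, lawE, lawF, map_add, map_mul, map_zero, hφ3])
    (try linear_combination (0) * h2)

theorem cj_a (φ : K →+* K) (hφ3 : ∀ t, φ (φ (φ t)) = t) (w : K) {b : K} (c d e f : K) (hb : φ b = b) :
    pr φ (w) (0) (0) (0) (0) (0) * pr φ (0) (b) (c) (d) (e) (f) * pr φ (w) (0) (0) (0) (0) (0) = pr φ (0) (b) (b * w + c) (b * (φ w) * (φ (φ w)) + (φ c) * (φ (φ w)) + (φ (φ c)) * (φ w) + d) (b * w * (φ w) * (φ (φ w)) + c * (φ w) * (φ (φ w)) + (φ c) * w * (φ (φ w)) + (φ (φ c)) * w * (φ w) + d * w + (φ d) * (φ w) + (φ (φ d)) * (φ (φ w)) + e) (b * b * w * (φ w) * (φ (φ w)) + b * c * (φ w) * (φ (φ w)) + b * (φ c) * w * (φ (φ w)) + b * (φ (φ c)) * w * (φ w) + c * (φ c) * (φ (φ w)) + c * (φ (φ c)) * (φ w) + (φ c) * (φ (φ c)) * w + f) := by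
  have h2 : (2 : K) = 0 := CharTwo.two_eq_zero
  rw [pr_mul φ hφ3 (b := 0) (by simp only [map_add, map_mul, map_zero, hb]), pr_mul φ hφ3 (b := 0 + b) (by simp only [map_add, map_mul, map_zero, hb])]
  apply pr_congr
  · (try simp only [lawD, lawE, lawF, map_add, map_mul, map_zero, hφ3, hb])
    (try linear_combination (w) * h2)
  · (try simp only [lawD, lawE, lawF, map_add, map_mul, map_zero, hφ3, hb])
    (try linear_combination (0) * h2)
  · (try simp only [lawD, lawE, lawF, map_add, map_mul, map_zero, hφ3, hb])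
    (try linear_combination (0) * h2)
  · (try simp only [lawD, lawE, lawF, map_add, map_mul, map_zero, hφ3, hb])
    (try linear_combination (0) * h2)
  · (try simp only [lawD, lawE, lawF, map_add, map_mul, map_zero, hφ3, hb])
    (try linear_combination (0) * h2)
  · (try simp only [lawD, lawE, lawF, map_add, map_mul, map_zero, hφ3, hb])
    (try linear_combination (0) * h2)

theorem cj_e (φ : K →+* K) (hφ3 : ∀ t, φ (φ (φ t)) = t) (u : K) {b : K} (d f : K) (hb : φ b = b) :
    pr φ (0) (0) (0) (0) (u) (0) * pr φ (0) (b) (0) (d) (0) (f) * pr φ (0) (0) (0) (0) (u) (0) = pr φ (0) (b) (0) (d) (0) (b * u + f) := by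
  have h2 : (2 : K) = 0 := CharTwo.two_eq_zero
  rw [pr_mul φ hφ3 (b := 0) (by simp only [map_add, map_mul, map_zero, hb]), pr_mul φ hφ3 (b := 0 + b) (by simp only [map_add, map_mul, map_zero, hb])]
  apply pr_congr
  · (try simp only [lawD, lawE, lawF, map_add, map_mul, map_zero, hφ3, hb])
    (try linear_combination (0) * h2)
  · (try simp only [lawD, lawE, lawF, map_add, map_mul, map_zero, hφ3, hb])
    (try linear_combination (0) * h2)
  · (try simp only [lawD, lawE, lawF, map_add, map_mul, map_zero, hφ3, hb])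
    (try linear_combination (0) * h2)
  · (try simp only [lawD, lawE, lawF, map_add, map_mul, map_zero, hφ3, hb])
    (try linear_combination (0) * h2)
  · (try simp only [lawD, lawE, lawF, map_add, map_mul, map_zero, hφ3, hb])
    (try linear_combination (u) * h2)
  · (try simp only [lawD, lawE, lawF, map_add, map_mul, map_zero, hφ3, hb])
    (try linear_combination (0) * h2)

theorem sq_eqs (pr_inj' : ∀ (φ : K →+* K) {a b c d e f a' b' c' d' e' f' : K}, pr φ a b c d e f = pr φ a' b' c' d' e' f' →
      a = a' ∧ b = b' ∧ c = c' ∧ d = d' ∧ e = e' ∧ f = f')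
    (φ : K →+* K) (hφ3 : ∀ t, φ (φ (φ t)) = t) {b : K} (hb : φ b = b) (a c d e f : K)
    (h : pr φ a b c d e f * pr φ a b c d e f = 1) : a * b = 0 ∧ (φ a) * (φ (φ a)) * b + (φ a) * (φ (φ c)) + (φ (φ a)) * (φ c) = 0 ∧ a * (φ a) * (φ (φ a)) * b + a * (φ a) * (φ (φ c)) + a * (φ (φ a)) * (φ c) + a * d + (φ a) * (φ (φ a)) * c + (φ a) * (φ d) + (φ (φ a)) * (φ (φ d)) = 0 ∧ a * (φ a) * b * (φ (φ c)) + a * (φ (φ a)) * b * (φ c) + a * b * d + a * (φ c) * (φ (φ c)) + (φ a) * (φ (φ a)) * b * c + (φ a) * b * (φ d) + (φ a) * c * (φ (φ c)) + (φ (φ a)) * b * (φ (φ d)) + (φ (φ a)) * c * (φ c) + b * e + c * d + (φ c) * (φ d) + (φ (φ c)) * (φ (φ d)) = 0 := by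
  have h2 : (2 : K) = 0 := CharTwo.two_eq_zero
  rw [pr_mul φ hφ3 hb, ← pr_zero φ] at h
  obtain ⟨-, -, e3, e4, e5, e6⟩ := pr_inj' φ h
  simp only [lawD, lawE, lawF] at e4 e5 e6
  refine ⟨?_, ?_, ?_, ?_⟩
  · linear_combination e3 - (c) * h2
  · linear_combination e4 - (d) * h2
  · linear_combination e5 - (e) * h2
  · linear_combination e6 - (a * (φ a) * (φ (φ a)) * b * b + a * (φ a) * b * (φ (φ c)) + a * (φ (φ a)) * b * (φ c) + a * (φ c) * (φ (φ c)) + (φ a) * (φ (φ a)) * b * c + (φ a) * c * (φ (φ c)) + (φ (φ a)) * c * (φ c) + f) * h2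

end Cfsg.Agent.Lib.Tw3D4
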